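import Cfsg.Agent.Lib.XS3.Lin
import Cfsg.Agent.S2363
import Cfsg.Agent.Lib.LieAll.Main

/-!
# Classical groups with a non-abelian Sylow subgroup of order `p³`
-/

set_option autoImplicit false

namespace CfsgLib.XS3

open Matrix Finset Cfsg Cfsg.Agent

/-- the Sylow `p`-subgroups are non-abelian of order `p³` -/
structure Hyp (p : ℕ) (G : Type*) [Group G] : Prop where
  three : p ^ 3 ∣ Nat.card G
  four : ¬ p ^ 4 ∣ Nat.card G
  nc : ∀ S : Sylow p G, ¬ IsMulCommutative (S : Subgroup G)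

variable {p : ℕ} [hp : Fact p.Prime]

section Basic

variable {G : Type*} [Group G] [Finite G] (h : Hyp p G)
include h

omit [Finite G] in
theorem Hyp.not_comm {H : Type*} [Group H] [Finite H] (f : G →* H) (hf : Function.Injective f) (T : Sylow p H) :
    ¬ IsMulCommutative (T : Subgroup H) := fun hT => by
  obtain ⟨S⟩ : Nonempty (Sylow p G) := inferInstance
  obtain ⟨Q, hQ⟩ := (S.isPGroup'.map f).exists_le_sylow
  have e := Sylow.equiv Q T
  refine h.nc S ⟨⟨fun a b => Subtype.ext (hf ?_)⟩⟩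
  have := e.injective ((map_mul e ⟨f a, hQ ⟨a, a.2, rfl⟩⟩ ⟨f b, hQ ⟨b, b.2, rfl⟩⟩).trans
    ((hT.1.1 _ _).trans (map_mul e _ _).symm))
  simpa using congrArg Subtype.val this

theorem Hyp.of_equiv {H : Type*} [Group H] (e : G ≃* H) : Hyp p H :=
  have := Finite.of_equiv _ e.toEquiv
  ⟨Nat.card_congr e.toEquiv ▸ h.three, Nat.card_congr e.toEquiv ▸ h.four, h.not_comm e.toMonoidHom e.injective⟩

theorem Hyp.false_of_hom {X : Type*} [CommGroup X] (hX : Nat.card X = p ^ 3) (θ : X →* G)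
    (hθ : Function.Injective θ) : False := by
  have h1 : Nat.card θ.range = p ^ 3 := by rw [← hX, Nat.card_congr (MonoidHom.ofInjective hθ).toEquiv]
  have h2 : (Nat.card G).factorization p = 3 := by
    have := (hp.out.pow_dvd_iff_le_factorization (Nat.card_pos (α := G)).ne').1 h.three
    have := mt (hp.out.pow_dvd_iff_le_factorization (Nat.card_pos (α := G)).ne').2 h.four
    omega
  exact h.nc (Sylow.ofCard θ.range (by rw [h1, h2])) (show IsMulCommutative θ.range from inferInstance)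

omit [Finite G] in
theorem Hyp.false_int {g : ℤ} (hg : ¬ (p : ℤ) ∣ g) (e : (p : ℤ) ^ 4 ∣ g * Nat.card G) : False := by
  have : IsCoprime ((p : ℤ) ^ 4) g :=
    ((Nat.prime_iff_prime_int.1 hp.out).irreducible.coprime_iff_not_dvd.2 hg).pow_left
  exact h.four (Int.natCast_dvd_natCast.1 (by simpa using this.dvd_of_dvd_mul_left e))

omit [Finite G] in
theorem Hyp.false_nat {g : ℕ} (hg : ¬ p ∣ g) (e : p ^ 4 ∣ g * Nat.card G) : False :=
  h.four (((hp.out.coprime_iff_not_dvd.2 hg).pow_left 4).dvd_of_dvd_mul_left e)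

end Basic

/-- the product of the `a ^ i - 1`, `1 ≤ i ≤ m` -/
def PP (a : ℤ) (m : ℕ) : ℤ := ∏ i ∈ range m, (a ^ (i + 1) - 1)

theorem prod_dvd_PP (a : ℤ) {e k m : ℕ} (he : e ≠ 0) (h : k * e ≤ m) :
    ∏ j ∈ range k, (a ^ (e * (j + 1)) - 1) ∣ PP a m := by
  have h1 : ∀ j, e * (j + 1) - 1 + 1 = e * (j + 1) := fun j =>
    Nat.sub_add_cancel (Nat.mul_pos (Nat.pos_of_ne_zero he) j.succ_pos)
  have := prod_image (s := range k) (g := fun j => e * (j + 1) - 1) (f := fun i => a ^ (i + 1) - 1)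
    fun i _ j _ hij => by
      have := (h1 i).symm.trans ((congrArg (· + 1) hij).trans (h1 j))
      simpa [he] using this
  simp only [h1] at this
  rw [← this]
  refine prod_dvd_prod_of_subset _ _ _ fun i hi => ?_
  obtain ⟨j, hj, rfl⟩ := mem_image.1 hi
  have := Nat.mul_le_mul_left e (Nat.succ_le_of_lt (mem_range.1 hj))
  have := h1 j
  rw [mem_range]
  simp only [Nat.succ_eq_add_one, mul_comm k] at *
  omega

theorem dvd_pow_mul {a d : ℤ} {e : ℕ} (h : d ∣ a ^ e - 1) (j : ℕ) : d ∣ a ^ (e * j) - 1 :=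
  h.trans (by simpa [pow_mul] using sub_dvd_pow_sub_pow (a ^ e) 1 j)

omit hp in
theorem pow_dvd_PP {a : ℤ} {e k m : ℕ} (he : e ≠ 0) (h : k * e ≤ m) (h1 : (p : ℤ) ∣ a ^ e - 1) :
    (p : ℤ) ^ k ∣ PP a m := by
  refine Dvd.dvd.trans ?_ (prod_dvd_PP a he h)
  rw [← card_range k, ← prod_const, card_range]
  exact prod_dvd_prod_of_dvd _ _ fun j _ => dvd_pow_mul h1 _

theorem four_dvd_PP (h2 : p ≠ 2) {a : ℤ} {e m : ℕ} (he : e ≠ 0) (h : p * e ≤ m) (h1 : (p : ℤ) ∣ a ^ e - 1) :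
    (p : ℤ) ^ 4 ∣ PP a m := by
  have := hp.out.two_le
  rcases (by omega : p = 3 ∨ 4 ≤ p) with rfl | h4
  · refine Dvd.dvd.trans ?_ (prod_dvd_PP a he h)
    have h3 := dvd_sub_pow_of_dvd_sub h1 1
    rw [one_pow, ← pow_mul] at h3
    simpa [prod_range_succ, pow_succ, mul_assoc] using
      mul_dvd_mul (dvd_pow_mul h1 1) (mul_dvd_mul (dvd_pow_mul h1 2) h3)
  · exact pow_dvd_PP he ((Nat.mul_le_mul_right e h4).trans h) h1

theorem cast_PP {q : ℕ} (hq : q ≠ 0) (m : ℕ) : ((∏ i ∈ range m, (q ^ (i + 1) - 1) : ℕ) : ℤ) = PP q m := by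
  rw [Nat.cast_prod]
  exact prod_congr rfl fun i _ => by rw [Nat.cast_pred (by positivity), Nat.cast_pow]

theorem cast_PP2 {q : ℕ} (hq : q ≠ 0) (m : ℕ) :
    ((∏ i ∈ range m, (q ^ (2 * (i + 1)) - 1) : ℕ) : ℤ) = PP (q ^ 2) m := by
  simpa only [pow_mul, Nat.cast_pow] using cast_PP (pow_ne_zero 2 hq) m

theorem cast_PPU {q : ℕ} (hq : q ≠ 0) (m : ℕ) : ∃ ε : ℤ, IsUnit ε ∧
    ((∏ i ∈ range m, (if Even i then q ^ (i + 1) + 1 else q ^ (i + 1) - 1) : ℕ) : ℤ) = ε * PP (-q) m := by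
  induction m with
  | zero => exact ⟨1, isUnit_one, by simp [PP]⟩
  | succ m ih =>
    obtain ⟨ε, h1, h2⟩ := ih
    rw [prod_range_succ, Nat.cast_mul, h2, PP, PP, prod_range_succ]
    split_ifs with h
    · exact ⟨-ε, h1.neg, by rw [h.add_one.neg_pow]; push_cast; ring⟩
    · refine ⟨ε, h1, ?_⟩
      rw [(Nat.not_even_iff_odd.1 h).add_one.neg_pow, Nat.cast_pred (by positivity)]
      push_cast; ring

theorem dvd_orderOf (a : ℤ) : (p : ℤ) ∣ a ^ orderOf (a : ZMod p) - 1 := by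
  rw [← ZMod.intCast_zmod_eq_zero_iff_dvd]
  simp

theorem orderOf_ne_zero {a : ℤ} (h : (a : ZMod p) ≠ 0) : orderOf (a : ZMod p) ≠ 0 :=
  (isOfFinOrder_iff_pow_eq_one.2 ⟨p - 1, Nat.sub_pos_of_lt hp.out.one_lt, ZMod.pow_card_sub_one_eq_one h⟩).orderOf_pos.ne'

theorem dec3 : ∀ x : ZMod 3, ¬x = 0 → x ^ 2 - 1 = 0 := by decide

theorem dec243 : ∀ x : ZMod 243, 81 * (x - 1) = 0 → 3 * ((x ^ 2 - 1) * (x ^ 3 - 1)) = 0 →
    (x ^ 2 - 1) * (x ^ 3 - 1) = 0 := by decide +kernel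

theorem Hyp.false_lin {G : Type*} [Group G] (h : Hyp p G) (h2 : p ≠ 2) {a u : ℤ} {g n : ℕ} (h0 : (a : ZMod p) ≠ 0)
    (h1 : a ≠ 1) (hu : ¬ (p : ℤ) ∣ u) (g0 : g ≠ 0) (g1 : g ∣ n) (g2 : (g : ℤ) ∣ a - 1) (g3 : 3 ∣ n → (3 : ℤ) ∣ a - 1 → 3 ∣ g)
    (e : (g : ℤ) * (a - 1) * Nat.card G = u * PP a n) (hn : p * orderOf (a : ZMod p) ≤ n) : False := by
  have d0 := orderOf_ne_zero h0
  by_cases h3 : (p : ℤ) ∣ a - 1
  swap
  · refine h.false_int (g := g * (a - 1)) (fun h4 => ?_) (e ▸ (four_dvd_PP h2 d0 hn (dvd_orderOf a)).mul_left u)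
    exact h3 (((Nat.prime_iff_prime_int.1 hp.out).dvd_or_dvd h4).elim (·.trans g2) id)
  have h4 : p ≤ n := (Nat.le_mul_of_pos_right p (Nat.pos_of_ne_zero d0)).trans hn
  have h5 := hp.out.two_le
  obtain ⟨m, rfl⟩ : ∃ m, n = m + 1 := ⟨n - 1, by omega⟩
  obtain ⟨r, hr⟩ : (g : ℤ) ∣ ∑ i ∈ range (m + 1), a ^ i := by
    rw [← ZMod.intCast_zmod_eq_zero_iff_dvd] at g2 ⊢
    rw [Int.cast_sub, Int.cast_one, sub_eq_zero] at g2
    simpa [g2] using (ZMod.natCast_eq_zero_iff _ _).2 g1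
  have h6 : (Nat.card G : ℤ) = u * r * PP a m := by
    rw [PP, prod_range_succ, ← geom_sum_mul, hr] at e
    refine mul_left_cancel₀ (mul_ne_zero (Int.natCast_ne_zero.2 g0) (sub_ne_zero.2 h1)) (e.trans ?_)
    rw [PP]; ring
  have h7 : ¬ (p : ℤ) ^ 4 ∣ PP a m := fun h7 =>
    h.four (Int.natCast_dvd_natCast.1 (by simpa [h6] using h7.mul_left (u * r)))
  have h8 := mt (fun h => pow_dvd_PP (k := 4) one_ne_zero h ((pow_one a).symm ▸ h3)) h7
  have h9 := mt (fun h => four_dvd_PP h2 one_ne_zero h ((pow_one a).symm ▸ h3)) h7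
  obtain rfl : p = 3 := by
    have : p ≠ 4 := by rintro rfl; exact absurd hp.out (by decide)
    omega
  obtain rfl : m = 2 := by omega
  obtain rfl : g = 3 := Nat.dvd_antisymm g1 (g3 dvd_rfl h3)
  have k1 : (3 : ℤ) * Nat.card G = u * ((a ^ 2 - 1) * (a ^ 3 - 1)) := by
    refine mul_left_cancel₀ (sub_ne_zero.2 h1) ?_
    simp only [PP, prod_range_succ, range_zero, prod_empty] at e
    push_cast at e
    linear_combination e
  have k2 : (3 : ℤ) ^ 4 ∣ (a ^ 2 - 1) * (a ^ 3 - 1) := by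
    refine (Int.prime_three.irreducible.coprime_iff_not_dvd.2 hu).pow_left.dvd_of_dvd_mul_left (k1 ▸ ?_)
    exact mul_dvd_mul_left (3 : ℤ) (Int.natCast_dvd_natCast.2 h.three)
  have k3 := dec243 a (by
    have := (ZMod.intCast_zmod_eq_zero_iff_dvd _ 243).2 (mul_dvd_mul_left (81 : ℤ) h3)
    simpa using this) (by
    have := (ZMod.intCast_zmod_eq_zero_iff_dvd _ 243).2 (mul_dvd_mul_left (3 : ℤ) k2)
    simpa using this)
  have k4 : (3 : ℤ) * 81 ∣ 3 * Nat.card G :=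
    k1 ▸ ((ZMod.intCast_zmod_eq_zero_iff_dvd _ 243).1 (by simpa using k3)).mul_left u
  exact h.four (Int.natCast_dvd_natCast.1 ((mul_dvd_mul_iff_left (by norm_num)).1 k4))

section Rep

variable {ι : Type*} [Fintype ι] [DecidableEq ι] {F : Type*} [Field F] [Fintype F] {Γ : Type*} [Group Γ]

local notation "K" => AlgebraicClosure F
local notation "f" => algebraMap F (AlgebraicClosure F)

omit [Fintype F] in
theorem exists_frob {r : ℕ} (hr : r.Prime) [CharP F r] (a : ℕ) : ∃ ψ : K →+* K, ∀ x, ψ x = x ^ r ^ a :=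
  have := Fact.mk hr
  ⟨iterateFrobenius K r a, fun _ => rfl⟩

theorem ev_frob (A : Matrix ι ι F) {ζ : K} (h : Ev (A.map f) ζ) : Ev (A.map f) (ζ ^ Fintype.card F) := by
  obtain ⟨r, _, a, hr, ha⟩ := FiniteField.card' F
  obtain ⟨ψ, hψ⟩ := exists_frob (F := F) hr a
  have := h.map ψ
  rwa [hψ, ← ha, show (A.map f).map ψ = A.map f from by
    ext i j; simp [hψ, ← ha, ← map_pow, FiniteField.pow_card]] at this

omit [Fintype F] in
theorem ev_inv {A B J : Matrix ι ι F} (hJ : J.det ≠ 0) (e : Aᵀ * J * B = J) {ζ : K} (h0 : ζ ≠ 0)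
    (h : Ev (A.map f) ζ) : Ev (B.map f) ζ⁻¹ :=
  h.inv h0 (J := J.map f) (by rw [← RingHom.mapMatrix_apply, ← RingHom.map_det]; simpa using hJ)
    (by rw [← transpose_map, ← Matrix.map_mul, ← Matrix.map_mul, e])

theorem natCast_ne_zero (hq : ¬ p ∣ Fintype.card F) : (p : K) ≠ 0 := fun h => by
  obtain ⟨r, _, a, hr, ha⟩ := FiniteField.card' F
  rw [CharP.cast_eq_zero_iff K r, Nat.prime_dvd_prime_iff_eq hr hp.out] at h
  exact hq (ha ▸ h ▸ dvd_pow_self _ a.ne_zero)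

variable (ρ : Γ →* Matrix ι ι F) (hρ : Function.Injective ρ) (hq : ¬ p ∣ Fintype.card F) {x y z : Γ} (h : Tri p x y z)
include hρ hq h

theorem bound (c : ℤ) (hc : ∀ ζ, ζ ≠ 0 → Ev ((ρ z).map f) ζ → Ev ((ρ z).map f) (ζ ^ c)) (hc0 : (c : ZMod p) ≠ 0) :
    p * orderOf (c : ZMod p) ≤ Fintype.card ι :=
  degree_bound (natCast_ne_zero hq) (h.map (((f).mapMatrix : Matrix ι ι F →+* Matrix ι ι K).toMonoidHom.comp ρ).toHomUnits
    fun _ _ e => hρ (Matrix.map_injective (f).injective (congrArg Units.val e))) c hc hc0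

theorem bound_lin : p * orderOf (((Fintype.card F : ℕ) : ℤ) : ZMod p) ≤ Fintype.card ι :=
  bound ρ hρ hq h _ (fun ζ _ e => by simpa using ev_frob _ e) (by simpa [ZMod.natCast_eq_zero_iff] using hq)

theorem bound_form (h2 : p ≠ 2) {J : Matrix ι ι F} (hJ : J.det ≠ 0) (e : (ρ z)ᵀ * J * ρ z = J) :
    ∃ e ≠ 0, (p : ℤ) ∣ ((Fintype.card F : ℤ) ^ 2) ^ e - 1 ∧ 2 * (p * e) ≤ Fintype.card ι := by
  have h0 : (((Fintype.card F : ℕ) : ℤ) : ZMod p) ≠ 0 := by simpa [ZMod.natCast_eq_zero_iff] using hq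
  have h0' : ((-(Fintype.card F : ℕ) : ℤ) : ZMod p) ≠ 0 := by simpa using h0
  have h1 := bound_lin ρ hρ hq h
  have h3 := bound ρ hρ hq h (-(Fintype.card F : ℕ)) (fun ζ h0 e' => by
    simpa using ev_inv hJ e (pow_ne_zero _ h0) (ev_frob _ e')) h0'
  generalize ((Fintype.card F : ℕ) : ℤ) = q at *
  rcases Nat.even_or_odd (orderOf (q : ZMod p)) with ⟨k, hk⟩ | hk
  · refine ⟨k, fun e => orderOf_ne_zero h0 (by omega), ?_, by rw [hk] at h1; linarith⟩
    rw [← pow_mul, two_mul, ← hk]; exact dvd_orderOf q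
  rcases Nat.even_or_odd (orderOf ((-q : ℤ) : ZMod p)) with ⟨k, hk'⟩ | hk'
  · refine ⟨k, fun e => orderOf_ne_zero h0' (by omega), ?_, by rw [hk'] at h3; linarith⟩
    rw [← neg_sq, ← pow_mul, two_mul, ← hk']; exact dvd_orderOf (-q)
  have h4 : ((-q : ℤ) : ZMod p) ^ (orderOf ((-q : ℤ) : ZMod p) * orderOf (q : ZMod p)) = 1 := by
    rw [pow_mul, pow_orderOf_eq_one, one_pow]
  have h5 := hk'.mul hk
  rw [Int.cast_neg (R := ZMod p)] at h4 h5
  rw [h5.neg_pow, pow_mul', pow_orderOf_eq_one, one_pow] at h4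
  have : Fact (2 < p) := ⟨lt_of_le_of_ne hp.out.two_le h2.symm⟩
  exact absurd h4 ZMod.neg_one_ne_one

end Rep

variable {F : Type} [Field F] [Fintype F] (h2 : p ≠ 2)
include h2

theorem not_dvd_of_dvd_four {g : ℕ} (h : g ∣ 4) : ¬ p ∣ g := fun e =>
  h2 ((Nat.prime_dvd_prime_iff_eq hp.out Nat.prime_two).1 (hp.out.dvd_of_dvd_pow (n := 2) (e.trans h)))

omit h2 in
theorem sq_of_dvd {q : ℕ} (hq : IsPrimePow q) (h : p ∣ q) (h' : ¬ p ^ 2 ∣ q) : q = p := by
  obtain ⟨r, k, hr, hk, rfl⟩ := (isPrimePow_nat_iff q).1 hq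
  obtain rfl := (Nat.prime_dvd_prime_iff_eq hp.out hr).1 (hp.out.dvd_of_dvd_pow h)
  rw [show k = 1 from by_contra fun e => h' (pow_dvd_pow _ (by omega)), pow_one]

theorem psl {n : ℕ} (hn : 2 ≤ n) (h : Hyp p (ProjectiveSpecialLinearGroup (Fin n) F)) : n = 3 ∧ Fintype.card F = p := by
  have e := S0243.result (F := F) rfl n hn
  have q2 : 2 ≤ Fintype.card F := Fintype.one_lt_card
  rw [S2363.prodGL, ← mul_assoc] at e
  by_cases hq : p ∣ Fintype.card F
  · have h1 : ¬ p ∣ Fintype.card F - 1 := fun h1 =>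
      hp.out.one_lt.ne' (Nat.dvd_one.1 (by simpa [Nat.sub_sub_self (by omega : 1 ≤ Fintype.card F)] using Nat.dvd_sub hq h1))
    have h3 : ∀ k, p ^ k ∣ Fintype.card F → 4 ≤ k * ∑ i ∈ range n, i → False := fun k h3 h4 =>
      h.false_nat (fun h5 => h1 ((hp.out.dvd_mul.1 h5).elim (·.trans (Nat.gcd_dvd_right _ _)) id))
        (e ▸ ((pow_dvd_pow p h4).trans (pow_mul p k _ ▸ pow_dvd_pow_of_dvd h3 _)).mul_right _)
    rcases (by omega : n = 2 ∨ n = 3 ∨ 4 ≤ n) with rfl | rfl | h4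
    · obtain ⟨r, _, a, hr, ha⟩ := FiniteField.card' F
      obtain rfl := (Nat.prime_dvd_prime_iff_eq hp.out hr).1 (hp.out.dvd_of_dvd_pow (ha ▸ hq))
      have h5 : (a : ℕ) ≤ 3 := by_contra fun h5 => h3 a ha.symm.dvd (by simp [sum_range_succ]; omega)
      have h6 : p ^ 3 ∣ p ^ (a : ℕ) := by
        have h6 := h.three.mul_left (Nat.gcd 2 (Fintype.card F - 1) * (Fintype.card F - 1))
        rw [e] at h6
        have h7 : Nat.Coprime (∏ i ∈ range 2, (Fintype.card F ^ (i + 1) - 1)) (Fintype.card F) :=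
          Nat.Coprime.prod_left fun i _ => S2363.cop_sub q2 i.succ_ne_zero
        simpa [sum_range_succ, ha] using ((h7.coprime_dvd_right hq).symm.pow_left 3).dvd_of_dvd_mul_right h6
      have h7 := (Nat.pow_dvd_pow_iff_le_right hr.one_lt).1 h6
      have hS := (LieAll.good_psl (K := F) le_rfl).nondeg
      let r : {p : Fin 2 × Fin 2 // p.1 ≠ p.2} := ⟨(0, 1), by decide⟩
      exact (h.false_of_hom (X := Multiplicative F) (by simp [ha, le_antisymm h5 h7])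
        (MonoidHom.mk' (fun t => (LieAll.qSys (ClSys.slSys 2 F)).x r t.toAdd) fun _ _ => RGD.StSys.x_add _ _ _ _)
        fun _ _ e => Multiplicative.toAdd.injective (hS.x_injective r e)).elim
    · exact ⟨rfl, sq_of_dvd (Fintype.isPrimePow_card_of_field) hq fun h5 => h3 2 h5 (by simp [sum_range_succ])⟩
    · refine (h3 1 (by simpa using hq) ?_).elim
      have := sum_range_id_mul_two n
      obtain ⟨n, rfl⟩ := Nat.exists_eq_add_of_le' h4
      simp only [Nat.add_succ_sub_one] at this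
      nlinarith
  obtain ⟨S⟩ : Nonempty (Sylow p (ProjectiveSpecialLinearGroup (Fin n) F)) := inferInstance
  obtain ⟨x, y, z, t⟩ := exists_tri_of_surj _ (QuotientGroup.mk'_surjective _) S (h.nc S)
  have h3 := bound_lin (slToMat n F) (fun _ _ e => Subtype.ext e) hq t
  have e' := congrArg (Nat.cast : ℕ → ℤ) e
  rw [Nat.cast_mul, Nat.cast_mul, Nat.cast_mul, cast_PP (by omega), Nat.cast_pred (by omega)] at e'
  have h4 : ((Fintype.card F - 1 : ℕ) : ℤ) = Fintype.card F - 1 := Nat.cast_pred (by omega)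
  exact (h.false_lin h2 (by simpa [ZMod.natCast_eq_zero_iff] using hq) (by omega)
    (fun h5 => hq (hp.out.dvd_of_dvd_pow (Int.natCast_dvd_natCast.1 h5))) (Nat.gcd_pos_of_pos_left _ (by omega)).ne'
    (Nat.gcd_dvd_left _ _) (h4 ▸ Int.natCast_dvd_natCast.2 (Nat.gcd_dvd_right _ _))
    (fun h5 h6 => Nat.dvd_gcd h5 (Int.natCast_dvd_natCast.1 (h4 ▸ h6))) e' (by simpa using h3)).elim

theorem psu {n q : ℕ} (hF : Fintype.card F = q ^ 2) (hn : 3 ≤ n) (h : Hyp p (PSU n F q)) : n = 3 ∧ q = p := by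
  have e := S0280.result hF n (by omega)
  obtain ⟨r, _, -, hr, -⟩ := FiniteField.card' F
  obtain ⟨a, ha, q2⟩ := S2363.exists_pow hr hF
  rw [← mul_assoc] at e
  by_cases hq : p ∣ q
  · have h1 : ¬ p ∣ q + 1 := fun h1 => hp.out.one_lt.ne' (Nat.dvd_one.1 ((Nat.dvd_add_right hq).1 h1))
    have h3 : ∀ k, p ^ k ∣ q → 4 ≤ k * (n * (n - 1) / 2) → False := fun k h3 h4 =>
      h.false_nat (fun h5 => h1 ((hp.out.dvd_mul.1 h5).elim (·.trans (Nat.gcd_dvd_right _ _)) id))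
        (e ▸ ((pow_dvd_pow p h4).trans (pow_mul p k _ ▸ pow_dvd_pow_of_dvd h3 _)).mul_right _)
    rcases hn.eq_or_lt with rfl | h4
    · refine ⟨rfl, sq_of_dvd (ha ▸ hr.isPrimePow.pow ?_) hq fun h5 => h3 2 h5 (by simp)⟩
      rintro rfl
      simp [ha] at q2
    · refine (h3 1 (by simpa using hq) ?_).elim
      have := Nat.mul_le_mul (show 4 ≤ n from h4) (show 3 ≤ n - 1 by omega)
      omega
  obtain ⟨S⟩ : Nonempty (Sylow p (PSU n F q)) := inferInstance
  obtain ⟨x, y, z, t⟩ := exists_tri_of_surj _ (QuotientGroup.mk'_surjective _) S (h.nc S)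
  have h0 : ((-(q : ℤ) : ℤ) : ZMod p) ≠ 0 := by simpa [ZMod.natCast_eq_zero_iff] using hq
  have h3 := bound ((slToMat n F).comp (SU n F q).subtype) (fun _ _ e => Subtype.ext (Subtype.ext e))
    (fun e => hq (hp.out.dvd_of_dvd_pow (hF ▸ e))) t (-q) (fun ζ h0 e' => by
      obtain ⟨ψ, hψ⟩ := exists_frob (F := F) hr a
      have k1 := e'.map ψ
      have k2 := congrArg transpose ((Unitary.mem_SU_iff hF _).1 z.2)
      rw [transpose_mul, transpose_transpose, transpose_one] at k2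
      rw [hψ, ← ha, show ∀ A : Matrix (Fin n) (Fin n) F, (A.map (algebraMap F (AlgebraicClosure F))).map ψ =
        (A.map (Unitary.conj hF)).map (algebraMap F (AlgebraicClosure F)) from fun A => by
          ext i j; simp [hψ, ← ha, Unitary.conj_apply]] at k1
      simpa using ev_inv (J := 1) (by simp) (by rw [mul_one]; exact k2) (pow_ne_zero _ h0) k1) h0
  have e' := congrArg (Nat.cast : ℕ → ℤ) e
  obtain ⟨ε, k1, k2⟩ := cast_PPU (q := q) (by omega) n
  rw [Nat.cast_mul, Nat.cast_mul, Nat.cast_mul, k2] at e'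
  have h4 : ∀ d : ℤ, d ∣ -(q : ℤ) - 1 ↔ d ∣ ((q + 1 : ℕ) : ℤ) := fun d => by
    rw [← dvd_neg]; push_cast; ring_nf
  refine (h.false_lin h2 (u := -(((q ^ (n * (n - 1) / 2) : ℕ) : ℤ) * ε)) (n := n) h0 (by omega) (fun h5 => ?_)
    (Nat.gcd_pos_of_pos_left _ (by omega)).ne' (Nat.gcd_dvd_left _ _)
    ((h4 _).2 (Int.natCast_dvd_natCast.2 (Nat.gcd_dvd_right _ _)))
    (fun h5 h6 => Nat.dvd_gcd h5 (Int.natCast_dvd_natCast.1 ((h4 _).1 h6))) ?_ (by simpa using h3)).elim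
  · rw [dvd_neg, k1.dvd_mul_right] at h5
    exact hq (hp.out.dvd_of_dvd_pow (Int.natCast_dvd_natCast.1 h5))
  · push_cast at e' ⊢
    linear_combination -e'

/-- the symplectic and orthogonal groups -/
theorem Hyp.false_form {G Γ ι : Type*} [Group G] [Group Γ] [Finite Γ] [Fintype ι] [DecidableEq ι] (h : Hyp p G)
    (π : Γ →* G) (hπ : Function.Surjective π) (ρ : Γ →* Matrix ι ι F) (hρ : Function.Injective ρ)
    {J : Matrix ι ι F} (hJ : J.det ≠ 0) (e : ∀ z, (ρ z)ᵀ * J * ρ z = J) {g N R m : ℕ} (hg : g ∣ 4) (hN : 4 ≤ N)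
    (h1 : g * Nat.card G = Fintype.card F ^ N * R * ∏ i ∈ range m, (Fintype.card F ^ (2 * (i + 1)) - 1))
    (hm : Fintype.card ι ≤ 2 * m + 1 ∨ (Fintype.card ι ≤ 2 * m + 2 ∧ 3 ≤ m)) : False := by
  have g0 := not_dvd_of_dvd_four h2 hg
  by_cases hq : p ∣ Fintype.card F
  · exact h.false_nat g0 (h1 ▸ (((pow_dvd_pow p hN).trans (pow_dvd_pow_of_dvd hq N)).mul_right _).mul_right _)
  obtain ⟨S⟩ : Nonempty (Sylow p G) := inferInstance
  obtain ⟨x, y, z, t⟩ := exists_tri_of_surj π hπ S (h.nc S)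
  obtain ⟨k, k0, k1, k2⟩ := bound_form ρ hρ hq t h2 hJ (e z)
  refine h.false_nat g0 (h1 ▸ Dvd.dvd.mul_left (Int.natCast_dvd_natCast.1 ?_) _)
  rw [cast_PP2 Fintype.card_ne_zero, Nat.cast_pow]
  rcases hm with hm | ⟨hm, h3⟩
  · exact four_dvd_PP h2 k0 (by omega) k1
  have := hp.out.two_le
  have : p ≠ 4 := by rintro rfl; exact absurd hp.out (by decide)
  rcases (by omega : p = 3 ∨ 5 ≤ p) with rfl | h5
  · refine four_dvd_PP h2 one_ne_zero h3 ?_
    rw [pow_one, ← ZMod.intCast_zmod_eq_zero_iff_dvd]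
    rw [← ZMod.natCast_eq_zero_iff] at hq
    push_cast
    generalize (Fintype.card F : ZMod 3) = x at hq
    exact dec3 x hq
  · have := Nat.mul_le_mul_right k h5
    exact pow_dvd_PP k0 (by omega) k1

theorem psp {m : ℕ} (hm : 2 ≤ m) (h : Hyp p (PSp m F)) : False := by
  have e := S0245.result (F := F) rfl m
  rw [Subgroup.card_eq_card_quotient_mul_card_subgroup (Subgroup.center _), S0246.result rfl _ (by omega), mul_comm] at e
  exact h.false_form h2 _ (QuotientGroup.mk'_surjective _) (Matrix.symplecticGroup (Fin m) F).subtype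
    Subtype.val_injective (isUnit_det_J (Fin m) F).ne_zero (fun z => SymplecticGroup.mem_iff'.1 z.2)
    ((Nat.gcd_dvd_left 2 _).trans (by norm_num)) (N := m ^ 2) (by nlinarith) (R := 1) (by rw [mul_one]; exact e)
    (.inl (by simp; omega))

theorem orth {ι : Type} [Fintype ι] [DecidableEq ι] {q : (ι → F) → F} {Q : QuadraticForm F (ι → F)}
    (hQ : ∀ x, q x = Q x) (hn : OrthE.Nondeg Q) (h : Hyp p (POmega F q)) {g N R m : ℕ} (hg : g ∣ 4) (hN : 4 ≤ N)
    (h1 : g * Nat.card (POmega F q) = Fintype.card F ^ N * R * ∏ i ∈ range m, (Fintype.card F ^ (2 * (i + 1)) - 1))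
    (hm : Fintype.card ι ≤ 2 * m + 1 ∨ (Fintype.card ι ≤ 2 * m + 2 ∧ 3 ≤ m)) : False := by
  refine h.false_form h2 _ (QuotientGroup.mk'_surjective _)
    (((Units.coeHom _).comp (isometryGroup F q).subtype).comp (Omega F q).subtype)
    (fun _ _ e => Subtype.ext (Subtype.ext (Units.ext e))) (J := LinearMap.BilinForm.toMatrix' Q.polarBilin)
    (LinearMap.BilinForm.nondegenerate_toMatrix'_iff.2 ((OrthE.nondeg_iff Q).1 hn)).det_ne_zero (fun z => ?_) hg hN h1 hm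
  have h3 := OrthE.mem_isometryGroup.1 z.1.2
  simp only [hQ] at h3
  have : LinearMap.BilinForm.comp Q.polarBilin (toLin' (z.1.1 : Matrix ι ι F)) (toLin' (z.1.1 : Matrix ι ι F)) = Q.polarBilin := by
    refine LinearMap.ext₂ fun u v => ?_
    simp [QuadraticMap.polar, ← mulVec_add, h3]
  have h4 := congrArg LinearMap.BilinForm.toMatrix' this
  rwa [LinearMap.BilinForm.toMatrix'_comp, LinearMap.toMatrix'_toLin'] at h4

theorem orthOdd {m : ℕ} (hm : 3 ≤ m) (ho : Odd (Fintype.card F)) (h : Hyp p (POmega F (quadFormOdd m F))) : False :=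
  orth h2 (OrthE.qOdd_eq m) (OrthE.nondeg_qOdd (OrthE.two_ne_zero_of_odd ho) m) h (g := 2) (by norm_num) (N := m ^ 2) (by nlinarith)
    (R := 1) (by rw [mul_one]; exact S0292.result rfl ho m hm) (.inl (by simp; omega))

theorem orthPlus {m : ℕ} (hm : 4 ≤ m) (h : Hyp p (POmega F (quadFormPlus m F))) : False :=
  orth h2 (OrthE.qPlus_eq m) (OrthE.nondeg_qPlus m) h (Nat.gcd_dvd_left _ _)
    (le_trans (by omega) (Nat.mul_le_mul hm (show 3 ≤ m - 1 by omega))) (S0293.result rfl m hm) (.inr (by simp; omega))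

theorem orthMinus {m : ℕ} (hm : 4 ≤ m) {a b : F} (hab : ∀ z₁ z₂ : F, z₁ ^ 2 + a * z₁ * z₂ + b * z₂ ^ 2 = 0 → z₁ = 0 ∧ z₂ = 0)
    (h : Hyp p (POmega F (quadFormMinus (m - 1) F a b))) : False :=
  orth h2 (OrthE.qMinus_eq _ a b) (OrthE.nondeg_qMinus _ hab) h (Nat.gcd_dvd_left _ _)
    (le_trans (by omega) (Nat.mul_le_mul hm (show 3 ≤ m - 1 by omega))) (S0294.result rfl m hm a b hab)
    (.inr (by simp; omega))

end CfsgLib.XS3
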