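import Cfsg.Agent.Lib.XS3.Cl
import Cfsg.Agent.S2378
import Cfsg.Agent.S1074

/-!
# Exceptional and alternating groups with a non-abelian Sylow subgroup of order `p³`
-/

set_option autoImplicit false

namespace CfsgLib.XS3

open Cfsg Cfsg.Agent CfsgLib.Chev CfsgLib.Weyl CfsgLib.RGD CfsgLib.Lang CfsgLib.ChevAut Cfsg.Lie Cfsg.Lie.ChevalleyDatum

section Eig

variable {D : ChevalleyDatum} (h : RtOK D) {C A S T R : ℕ} (ht : TablesOK D C A S T) (hR : rtTab D.nroots = R)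

include ht hR in
theorem exists_eigen' {a : ℕ} {c : ℕ × List ℕ × List ℤ × List ℕ} (hc : homChk D.rank R S T a c = true) {r k q : ℕ}
    [hr : Fact r.Prime] (hk : 0 < k) (hl : ∀ b ≤ D.rank, b % r = a % r → b = a) (hrq : ¬ r ∣ q) (hd : orderOf (q : ZMod r) = c.1)
    (hq : (q : ZMod (r ^ k)) ^ c.1 = 1) : ∃ w ∈ (rootSys h).W,
      ∃ φ : (Fin a → Multiplicative (ZMod (r ^ k))) →* (Fin D.rank → Multiplicative (ZMod (r ^ k))),
        Function.Injective φ ∧ ∀ x j, (rootSys h).chr (φ x) (w ((rootSys h).simple j)) = φ x j ^ q := by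
  obtain ⟨d, L, ts, js⟩ := c
  simp only [homChk, Bool.and_eq_true, List.all_eq_true, decide_eq_true_eq, Weyl.allLt_iff, beq_iff_eq, Nat.ble_eq,
    sumLt_eq, Finset.sum_range (n := D.rank)] at hc hd hq
  obtain ⟨⟨⟨⟨⟨h1, h2⟩, h3⟩, h4⟩, -⟩, h6⟩ := hc
  obtain ⟨L', -, e⟩ := exists_word h ht L h1
  have hw := (rootSys h).wprod_mem_W L'
  set w := (rootSys h).wprod L'
  have := isLocalRing_zmod hr.out hk
  have hd' := hd ▸ MatConj.orderOf_lt hrq
  let M : Equiv.Perm (Fin D.nroots) → Matrix (Fin D.rank) (Fin D.rank) (ZMod (r ^ k)) := fun v =>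
    Matrix.of fun j i => (rootSys h).rt (v ((rootSys h).simple j)) i
  have hM : ∀ j, M w ^ j = M (w ^ j) := fun j => by
    induction j with
    | zero => ext i j; simp [M, RootSys.rt_simple, Matrix.one_apply, eq_comm]
    | succ j ih =>
      ext a b
      simp only [pow_succ, ih, M, Matrix.mul_apply, Matrix.of_apply, pow_succ' w, Equiv.Perm.mul_apply,
        (rootSys h).rt_apply_eq_sum hw ((w ^ j) _), Int.cast_sum, Int.cast_mul]
  have hv : ∀ j (i : Fin D.rank), ((w ^ j) ((rootSys h).simple i) : ℕ) = (applyW T L)^[j] (actT S 0 i) := fun j i => by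
    rw [pow_apply_val e, rootSys_simple, ht.simple_eq i i.2]
  obtain ⟨b, b1, b2, φ, b3, b4⟩ := exists_basis_eigenspace (Matrix.toLin' (M w)) (n := d) (by
      rw [← Matrix.toLin'_pow, hM, Module.End.one_eq_id, ← Matrix.toLin'_one, ← pow_zero (M w), hM]
      congr 1; ext i j
      simp only [M, Matrix.of_apply]
      rw [show (w ^ d) ((rootSys h).simple i) = (w ^ 0) ((rootSys h).simple i) from Fin.ext (by rw [hv, hv, h2 i i.2]; rfl)])
    hq ((ZMod.isUnit_natCast_iff_not_dvd_pow hr.out hk).2 (Nat.not_dvd_of_pos_of_lt hd'.1 hd'.2))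
  have b5 : evM (q : ZMod (r ^ k)) ((-(d * a), 0) :: (List.range d).map fun j => (ts.getD j 0, d - j)) = 0 := by
    have : evM (q : ZMod (r ^ k)) _ = 0 := (evM_eq hd'.1.ne' hq _).trans
      (Finset.sum_eq_zero fun i hi => by rw [h6 i (Finset.mem_range.1 hi), Int.cast_zero, zero_mul])
    clear h6
    induction js with
    | nil => exact this
    | cons j js ih =>
      rw [List.foldr_cons, evM_mulM] at this
      obtain ⟨j1, j2⟩ := h4 j List.mem_cons_self
      have hq0 : 1 ≤ q := Nat.pos_of_ne_zero (by rintro rfl; exact hrq (dvd_zero r))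
      refine ih (fun j hj => h4 j (List.mem_cons_of_mem _ hj)) ((IsUnit.mul_right_eq_zero ?_).1 this)
      rw [← Nat.cast_pow, ← Nat.cast_one, ← Nat.cast_sub (Nat.one_le_pow _ _ hq0),
        ZMod.isUnit_natCast_iff_not_dvd_pow hr.out hk, MatConj.dvd_pow_sub_one_iff hq0, hd]
      exact Nat.not_dvd_of_pos_of_lt j1 j2
  obtain rfl : b = a := by
    have : (d * b : ZMod (r ^ k)) = d * a := by
      rw [b2, ← sub_eq_zero, ← b5, evM, List.map_cons, List.sum_cons, List.map_map,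
        ← List.sum_toFinset _ List.nodup_range, List.toFinset_range, Finset.sum_congr rfl fun j hj => ?_]
      · push_cast; ring
      · rw [← Matrix.toLin'_pow, hM, Matrix.trace_toLin'_eq, mul_comm]
        simp only [Function.comp_apply, ← h3 j (Finset.mem_range.1 hj), Matrix.trace, Matrix.diag, M, Matrix.of_apply,
          rootSys_rt, rt, hR, hv, Int.cast_sum]
    have := congrArg (ZMod.castHom (dvd_pow_self r hk.ne') (ZMod r)) this
    simp only [map_mul, map_natCast] at this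
    rw [Module.finrank_fin_fun] at b1
    have := (ZMod.natCast_eq_natCast_iff' _ _ _).1 (mul_left_cancel₀
      (mt (ZMod.natCast_eq_zero_iff _ _).1 (Nat.not_dvd_of_pos_of_lt hd'.1 hd'.2)) this)
    exact hl b b1 this
  refine ⟨w, hw, MonoidHom.mk' (fun x i => Multiplicative.ofAdd (φ (fun j => (x j).toAdd) i)) fun x y => funext fun i =>
    congrArg Multiplicative.ofAdd (congrFun (φ.map_add (fun j => (x j).toAdd) fun j => (y j).toAdd) i),
    fun x y e => b3 e, fun x j => ?_⟩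
  apply Multiplicative.toAdd.injective
  have := congrFun (b4 fun j => (x j).toAdd) j
  simpa [RootSys.chr, toAdd_prod, M, Matrix.mulVec, dotProduct] using this

end Eig

variable {p : ℕ} [hp : Fact p.Prime] {F : Type} [Field F] [Fintype F]

section Tools

variable {G : Type*} [Group G] (h : Hyp p G)
include h

theorem Hyp.false_chev [Finite G] {D : ChevalleyDatum} {ds : List ℕ}
    (hc : (D, ds) ∈ [(chevG2, [2, 6]), (chevB2, [2, 4]), (chevD4, [2, 4, 4, 6]), (chevF4, [2, 6, 8, 12]),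
      (chevE6, [2, 5, 6, 8, 9, 12]), (chevE7, [2, 6, 8, 10, 12, 14, 18]), (chevE8, [2, 8, 12, 14, 18, 20, 24, 30])])
    (f : G →* D.group F) (hf : Function.Injective f) (h1 : ¬ p ∣ Fintype.card F) (h2 : ¬ p ∣ ds.prod) : False := by
  obtain ⟨P⟩ : Nonempty (Sylow p (D.group F)) := inferInstance
  obtain ⟨e⟩ := S2378.result rfl (D, ds) hc p h1 h2
    (((dvd_pow_self p three_ne_zero).trans h.three).trans (Subgroup.card_dvd_of_injective f hf)) P
  exact h.not_comm f hf P ⟨⟨fun a b => e.injective (by rw [map_mul, map_mul, mul_comm])⟩⟩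

theorem Hyp.false_dec {g T : ℕ} (e : g * Nat.card G = T) (hg : ¬ p ∣ g) {M : ℕ} (hM : M = p ^ 4)
    (H : (p : ZMod M) * T = 0 → (T : ZMod M) = 0) : False := by
  subst hM
  refine h.false_nat hg (e ▸ (ZMod.natCast_eq_zero_iff _ _).1 (H ?_))
  rw [← Nat.cast_mul, ZMod.natCast_eq_zero_iff, pow_succ', ← e]
  exact Nat.mul_dvd_mul_left p (h.three.mul_left g)

theorem Hyp.false_def {g q N T : ℕ} (e : g * Nat.card G = T) (hT : q ^ N ∣ T) (hg : g.Coprime q) (hq : p ∣ q)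
    (hN : 4 ≤ N) : False :=
  h.false_nat (hp.out.coprime_iff_not_dvd.1 (hg.coprime_dvd_right hq).symm)
    (e ▸ ((pow_dvd_pow p hN).trans (pow_dvd_pow_of_dvd hq N)).trans hT)

end Tools

theorem Hyp.false_three {G : Type*} [Group G] (h : Hyp 3 G) {g T : ℕ} (e : g * Nat.card G = T) (hg : g ∣ 3)
    (H : (T : ZMod 243) = 0) : False :=
  h.four (Nat.dvd_of_mul_dvd_mul_left three_pos
    ((e ▸ (ZMod.natCast_eq_zero_iff _ 243).1 H).trans (Nat.mul_dvd_mul_right hg _)))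

theorem cast_sub {q : ℕ} (hq : q ≠ 0) (M i : ℕ) : ((q ^ i - 1 : ℕ) : ZMod M) = (q : ZMod M) ^ i - 1 := by
  rw [Nat.cast_pred (by positivity), Nat.cast_pow]

omit hp in
theorem unit_of {q k M : ℕ} (hM : M = k * p) (hk : k ≠ 0) (hq : ¬ p ∣ q) : (k : ZMod M) * q ≠ 0 := fun e => by
  rw [← Nat.cast_mul, ZMod.natCast_eq_zero_iff, hM] at e
  exact hq (Nat.dvd_of_mul_dvd_mul_left (Nat.pos_of_ne_zero hk) e)

theorem fermat {q : ℕ} (hq : ¬ p ∣ q) : p ∣ q ^ (p - 1) - 1 := by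
  rw [← ZMod.natCast_eq_zero_iff, cast_sub (by rintro rfl; exact hq (dvd_zero p)), sub_eq_zero]
  exact ZMod.pow_card_sub_one_eq_one (mt (ZMod.natCast_eq_zero_iff _ _).1 hq)

omit hp in
theorem four_dvd {q e : ℕ} (h : p ∣ q ^ e - 1) (a b c d R : ℕ) (H : e ∣ a ∧ e ∣ b ∧ e ∣ c ∧ e ∣ d) :
    p ^ 4 ∣ (q ^ a - 1) * (q ^ b - 1) * (q ^ c - 1) * (q ^ d - 1) * R := by
  have k : ∀ a, e ∣ a → p ∣ q ^ a - 1 := fun a ha => h.trans (Nat.pow_sub_one_dvd_pow_sub_one q ha)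
  rw [pow_succ, pow_succ, pow_two]
  exact (Nat.mul_dvd_mul (Nat.mul_dvd_mul (Nat.mul_dvd_mul (k a H.1) (k b H.2.1)) (k c H.2.2.1)) (k d H.2.2.2)).mul_right R

/-- the primes up to `71` -/
def primes : List ℕ := [2, 3, 5, 7, 11, 13, 17, 19, 23, 29, 31, 37, 41, 43, 47, 59, 67, 71]

theorem mem_primes {N : ℕ} (h : p ∣ N) (hN : N ∣ primes.prod ^ 46) : p ∈ primes := by
  obtain ⟨a, ha, h1⟩ := (Prime.dvd_prod_iff hp.out.prime).1 (hp.out.dvd_of_dvd_pow (h.trans hN))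
  have : ∀ a ∈ primes, a.Prime := by simp only [primes, List.forall_mem_cons]; norm_num
  exact (Nat.prime_dvd_prime_iff_eq hp.out (this a ha)).1 h1 ▸ ha

theorem mem_of_dvd {N : ℕ} (h : p ∣ N) (l : List ℕ) (H : N ∣ primes.prod ^ 46 ∧ ∀ r ∈ primes, r ∣ N → r ∈ l) : p ∈ l :=
  H.2 p (mem_primes h H.1) h

theorem Hyp.mem {G : Type*} [Group G] (h : Hyp p G) (h2 : p ≠ 2) {N : ℕ} (hN : Nat.card G = N) (l : List ℕ)
    (H : N ∣ primes.prod ^ 46 ∧ ∀ r ∈ primes, r ≠ 2 → r ^ 3 ∣ N → ¬ r ^ 4 ∣ N → r ∈ l) : p ∈ l :=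
  H.2 p (mem_primes ((dvd_pow_self p three_ne_zero).trans (hN ▸ h.three)) H.1) h2 (hN ▸ h.three) (hN ▸ h.four)

theorem decG2 : ∀ x : ZMod 81, 9 * (x ^ 2 - 1) = 0 → x ^ 6 * (x ^ 2 - 1) * (x ^ 6 - 1) = 0 := by decide +kernel

theorem decE6 : (∀ x : ZMod 243, 81 * x ≠ 0 →
    x ^ 36 * (x ^ 2 - 1) * (x ^ 5 - 1) * (x ^ 6 - 1) * (x ^ 8 - 1) * (x ^ 9 - 1) * (x ^ 12 - 1) = 0) ∧ ∀ x : ZMod 625,
    5 * (x ^ 36 * (x ^ 2 - 1) * (x ^ 5 - 1) * (x ^ 6 - 1) * (x ^ 8 - 1) * (x ^ 9 - 1) * (x ^ 12 - 1)) = 0 →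
    x ^ 36 * (x ^ 2 - 1) * (x ^ 5 - 1) * (x ^ 6 - 1) * (x ^ 8 - 1) * (x ^ 9 - 1) * (x ^ 12 - 1) = 0 := by
  decide +kernel

theorem dec2E6 : (∀ x : ZMod 243, 81 * x ≠ 0 →
    x ^ 36 * (x ^ 2 - 1) * (x ^ 5 + 1) * (x ^ 6 - 1) * (x ^ 8 - 1) * (x ^ 9 + 1) * (x ^ 12 - 1) = 0) ∧ ∀ x : ZMod 625,
    5 * (x ^ 36 * (x ^ 2 - 1) * (x ^ 5 + 1) * (x ^ 6 - 1) * (x ^ 8 - 1) * (x ^ 9 + 1) * (x ^ 12 - 1)) = 0 →
    x ^ 36 * (x ^ 2 - 1) * (x ^ 5 + 1) * (x ^ 6 - 1) * (x ^ 8 - 1) * (x ^ 9 + 1) * (x ^ 12 - 1) = 0 := by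
  decide +kernel

theorem decE7 : ∀ x : ZMod 625, 5 * (x ^ 63 * (x ^ 2 - 1) * (x ^ 6 - 1) *
    (x ^ 8 - 1) * (x ^ 10 - 1) * (x ^ 12 - 1) * (x ^ 14 - 1) * (x ^ 18 - 1)) = 0 → x ^ 63 * (x ^ 2 - 1) * (x ^ 6 - 1) *
    (x ^ 8 - 1) * (x ^ 10 - 1) * (x ^ 12 - 1) * (x ^ 14 - 1) * (x ^ 18 - 1) = 0 := by
  decide +kernel

theorem dec3D4 : ∀ x : ZMod 81, 27 * x ≠ 0 → x ^ 12 * (x ^ 2 - 1) * (x ^ 6 - 1) * (x ^ 8 + x ^ 4 + 1) = 0 := by
  decide +kernel

theorem dec2F4 : ∀ x : ZMod 81, 9 * (x + 1) = 0 → x ^ 12 * (x ^ 1 - 1) * (x ^ 3 + 1) * (x ^ 4 - 1) * (x ^ 6 + 1) = 0 := by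
  decide +kernel

theorem dec9 : ∀ y : ZMod 9, 3 * y ≠ 0 → y ^ 6 = 1 ∧ (y ^ 2 ≠ 1 → y = (2 : ℕ) ∨ y = (4 : ℕ) ∨ y = (5 : ℕ) ∨ y = (7 : ℕ)) := by
  decide +kernel

theorem dec2 : ((2 : ℕ) : ZMod 3) ^ 2 = 1 ∧ 1 * ((2 : ℕ) : ZMod 3) ≠ 1 := by decide

theorem dec7 : ∀ y : ZMod 7, y ≠ 0 → y ^ 2 ≠ 1 → (y ^ 3 = 1 ∧ ∀ k < 3, 0 < k → y ^ k ≠ 1) ∨
    (y ^ 6 = 1 ∧ ∀ k < 6, 0 < k → y ^ k ≠ 1) := by
  decide +kernel

variable (h2 : p ≠ 2)
include h2

local notation "q" => Fintype.card F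

theorem g2 (h3 : 3 ≤ q) (h : Hyp p (chevG2.group F)) : p = 3 ∧ ∃ r a : ℕ, r.Prime ∧
    (r % 9 = 2 ∨ r % 9 = 4 ∨ r % 9 = 5 ∨ r % 9 = 7) ∧ 1 ≤ a ∧ ¬ 3 ∣ a ∧ (r = 2 → 1 < a) ∧ q = r ^ a := by
  have e := (one_mul _).trans (card_G2 F rfl)
  have hq : ¬ p ∣ q := fun hq => h.false_def e ((dvd_mul_right _ _).mul_right _) (Nat.coprime_one_left _) hq (by norm_num)
  have h4 : p ∣ [2, 6].prod := by_contra (h.false_chev (D := chevG2) (by simp) (.id _) (fun _ _ => id) hq)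
  obtain rfl : p = 3 := by simpa [h2] using mem_of_dvd h4 [2, 3] (by decide +kernel)
  have h5 : (q : ZMod 9) ^ 2 ≠ 1 := fun h5 => h.false_dec e (by norm_num) (M := 81) rfl fun _ => by
    simp only [Nat.cast_mul, Nat.cast_pow, cast_sub Fintype.card_ne_zero]
    refine decG2 _ ?_
    rw [← sub_eq_zero, ← cast_sub Fintype.card_ne_zero, ZMod.natCast_eq_zero_iff] at h5
    rw [← cast_sub Fintype.card_ne_zero]
    exact_mod_cast (ZMod.natCast_eq_zero_iff _ 81).2 (Nat.mul_dvd_mul_left 9 h5)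
  obtain ⟨r, _, a, hr, ha⟩ := FiniteField.card' F
  have h6 := dec9 r (unit_of (p := 3) (k := 3) rfl (by norm_num) fun e => hq (ha ▸ e.trans (dvd_pow_self _ a.ne_zero)))
  rw [ha, Nat.cast_pow, ← pow_mul] at h5
  refine ⟨rfl, r, a, hr, ?_, a.2, ?_, ?_, ha⟩
  · simpa only [ZMod.natCast_eq_natCast_iff'] using h6.2 fun e => h5 (by rw [pow_mul', e, one_pow])
  · rintro ⟨b, hb⟩
    exact h5 (by rw [hb, show 3 * b * 2 = 6 * b by ring, pow_mul, h6.1, one_pow])
  · rintro rfl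
    refine lt_of_le_of_ne a.2 fun e => ?_
    rw [ha, ← e] at h3
    omega

theorem f4 (h : Hyp p (chevF4.group F)) : False := by
  have e := (one_mul _).trans (card_F4 F rfl)
  have hq : ¬ p ∣ q := fun hq => h.false_def e ((((dvd_mul_right _ _).mul_right _).mul_right _).mul_right _)
    (Nat.coprime_one_left _) hq (by norm_num)
  have h4 : p ∣ [2, 6, 8, 12].prod := by_contra (h.false_chev (D := chevF4) (by simp) (.id _) (fun _ _ => id) hq)
  obtain rfl : p = 3 := by simpa [h2] using mem_of_dvd h4 [2, 3] (by decide +kernel)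
  exact h.false_nat (g := 1) (by norm_num) ((four_dvd (fermat hq) 2 6 8 12 (q ^ 24) (by decide)).trans (dvd_of_eq (by rw [e]; ring)))

theorem e6 (h : Hyp p (chevE6.group F)) : False := by
  have e := card_E6 F rfl
  have hq : ¬ p ∣ q := fun hq => h.false_def e ((((((dvd_mul_right _ _).mul_right _).mul_right _).mul_right _).mul_right
    _).mul_right _) (S2363.gcd_cop (S2363.cop_sub1 Fintype.one_lt_card)) hq (by norm_num)
  have h4 : p ∣ [2, 5, 6, 8, 9, 12].prod := by_contra (h.false_chev (D := chevE6) (by simp) (.id _) (fun _ _ => id) hq)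
  obtain rfl | rfl : p = 3 ∨ p = 5 := by simpa [h2] using mem_of_dvd h4 [2, 3, 5] (by decide +kernel)
  · refine h.false_three e (Nat.gcd_dvd_left _ _) ?_
    simp only [Nat.cast_mul, Nat.cast_pow, cast_sub Fintype.card_ne_zero]
    exact decE6.1 _ (unit_of (k := 81) rfl (by norm_num) hq)
  · refine h.false_dec e (fun e => absurd (e.trans (Nat.gcd_dvd_left _ _)) (by norm_num)) (M := 625) rfl ?_
    simp only [Nat.cast_mul, Nat.cast_pow, cast_sub Fintype.card_ne_zero]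
    exact decE6.2 _

theorem e7 (h : Hyp p (chevE7.group F)) : False := by
  have e := card_E7 F rfl
  have hq : ¬ p ∣ q := fun hq => h.false_def e (((((((dvd_mul_right _ _).mul_right _).mul_right _).mul_right _).mul_right
    _).mul_right _).mul_right _) (S2363.gcd_cop (S2363.cop_sub1 Fintype.one_lt_card)) hq (by norm_num)
  have h4 : p ∣ [2, 6, 8, 10, 12, 14, 18].prod :=
    by_contra (h.false_chev (D := chevE7) (by simp) (.id _) (fun _ _ => id) hq)
  have hg := not_dvd_of_dvd_four h2 ((Nat.gcd_dvd_left 2 (q - 1)).trans (by norm_num))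
  have k : ¬ p ∣ q ^ 2 - 1 := fun k => h.false_nat hg ((four_dvd k 2 6 8 10
    (q ^ 63 * (q ^ 12 - 1) * (q ^ 14 - 1) * (q ^ 18 - 1)) (by decide)).trans (dvd_of_eq (by rw [e]; ring)))
  obtain rfl | rfl | rfl : p = 3 ∨ p = 5 ∨ p = 7 := by simpa [h2] using mem_of_dvd h4 [2, 3, 5, 7] (by decide +kernel)
  · exact k (fermat hq)
  · refine h.false_dec e hg (M := 625) rfl ?_
    simp only [Nat.cast_mul, Nat.cast_pow, cast_sub Fintype.card_ne_zero]
    exact decE7 _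
  have h5 : (q : ZMod 7) ^ 2 ≠ 1 := fun h5 => k (by
    rwa [← sub_eq_zero, ← cast_sub Fintype.card_ne_zero, ZMod.natCast_eq_zero_iff] at h5)
  have := good_of_mem (D := chevE7) (by simp)
  have key : ∀ c : ℕ × List ℕ × List ℤ × List ℕ, homChk 7 tRE7 tSE7 tTE7 3 c = true → 0 < c.1 →
      ((q : ZMod 7) ^ c.1 = 1 ∧ ∀ k < c.1, 0 < k → (q : ZMod 7) ^ k ≠ 1) → False := fun c hc h0 h6 => by
    obtain ⟨w, hw, φ, b1, b2⟩ := exists_eigen' rtOKE7 tablesOKE7 rfl hc (r := 7) (k := 1) one_pos (by decide) hq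
      ((orderOf_eq_iff h0).2 h6) h6.1
    obtain ⟨θ, hθ⟩ := exists_inj_hom rtOKE7 (by simp) (e := 2) (Nat.Coprime.pow_left _ (hp.out.coprime_iff_not_dvd.2 hq))
      (by norm_num) (tau_pow_mem rtOKE7 smithE7 fun i hi x => by
        suffices _ ∣ 2 by obtain ⟨j, hj⟩ := this; exact ⟨x ^ j, by rw [← pow_mul, mul_comm, ← hj]⟩
        revert i; decide) hw φ b1 b2
    exact h.false_of_hom (by simp) θ hθ
  exact (dec7 _ (mt (ZMod.natCast_eq_zero_iff _ _).1 hq) h5).elim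
    (key S2378.cE7_3 (List.all_eq_true.1 S2378.okE7 S2378.cE7_3 (by simp [S2378.tabE7])) (by decide))
    (key S2378.cE7_6 (List.all_eq_true.1 S2378.okE7 S2378.cE7_6 (by simp [S2378.tabE7])) (by decide))

theorem e8 (h : Hyp p (chevE8.group F)) : False := by
  have e := (one_mul _).trans (card_E8 F rfl)
  have hq : ¬ p ∣ q := fun hq => h.false_def e ((((((((dvd_mul_right _ _).mul_right _).mul_right _).mul_right _).mul_right
    _).mul_right _).mul_right _).mul_right _) (Nat.coprime_one_left _) hq (by norm_num)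
  have h4 : p ∣ [2, 8, 12, 14, 18, 20, 24, 30].prod :=
    by_contra (h.false_chev (D := chevE8) (by simp) (.id _) (fun _ _ => id) hq)
  obtain rfl | rfl | rfl : p = 3 ∨ p = 5 ∨ p = 7 := by simpa [h2] using mem_of_dvd h4 [2, 3, 5, 7] (by decide +kernel)
  · exact h.false_nat (g := 1) (by norm_num) ((four_dvd (fermat hq) 12 18 24 30
      (q ^ 120 * (q ^ 2 - 1) * (q ^ 8 - 1) * (q ^ 14 - 1) * (q ^ 20 - 1)) (by decide)).trans (dvd_of_eq (by rw [e]; ring)))
  · exact h.false_nat (g := 1) (by norm_num) ((four_dvd (fermat hq) 8 12 20 24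
      (q ^ 120 * (q ^ 2 - 1) * (q ^ 18 - 1) * (q ^ 14 - 1) * (q ^ 30 - 1)) (by decide)).trans (dvd_of_eq (by rw [e]; ring)))
  · exact h.false_nat (g := 1) (by norm_num) ((four_dvd (fermat hq) 12 18 24 30
      (q ^ 120 * (q ^ 2 - 1) * (q ^ 8 - 1) * (q ^ 14 - 1) * (q ^ 20 - 1)) (by decide)).trans (dvd_of_eq (by rw [e]; ring)))

omit h2 [Fintype F] in
theorem gen_le_group {D : ChevalleyDatum} [Good D] (W : Set (List (ℕ × F))) : D.genSubgroup F W ≤ D.group F :=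
  Twist.gen_le fun w _ => wordU_mem_group w

theorem te6 {n : ℕ} (hn : IsPrimePow n) (hF : q = n ^ 2) (h : Hyp p (twistedE6 F n)) : False := by
  have e := S1066.result hn hF
  have hq : ¬ p ∣ n := fun hq => h.false_def e ((((((dvd_mul_right _ _).mul_right _).mul_right _).mul_right _).mul_right
    _).mul_right _) (S2363.gcd_cop S2363.cop_add1) hq (by norm_num)
  have := good_of_mem (D := chevE6) (by simp)
  have h4 : p ∣ [2, 5, 6, 8, 9, 12].prod := by_contra (h.false_chev (D := chevE6) (by simp)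
    (Subgroup.inclusion (gen_le_group _)) (Subgroup.inclusion_injective _) fun e => hq (hp.out.dvd_of_dvd_pow (hF ▸ e)))
  obtain rfl | rfl : p = 3 ∨ p = 5 := by simpa [h2] using mem_of_dvd h4 [2, 3, 5] (by decide +kernel)
  · refine h.false_three e (Nat.gcd_dvd_left _ _) ?_
    simp only [Nat.cast_mul, Nat.cast_pow, Nat.cast_add, Nat.cast_one, cast_sub hn.ne_zero]
    exact dec2E6.1 _ (unit_of (k := 81) rfl (by norm_num) hq)
  · refine h.false_dec e (fun e => absurd (e.trans (Nat.gcd_dvd_left _ _)) (by norm_num)) (M := 625) rfl ?_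
    simp only [Nat.cast_mul, Nat.cast_pow, Nat.cast_add, Nat.cast_one, cast_sub hn.ne_zero]
    exact dec2E6.2 _

theorem td4 {n : ℕ} (hn : IsPrimePow n) (hF : q = n ^ 3) (h : Hyp p (twistedD4 F n)) : False := by
  have e := (one_mul _).trans (S1067.result hn hF)
  have hq : ¬ p ∣ n := fun hq => h.false_def e (((dvd_mul_right _ _).mul_right _).mul_right _)
    (Nat.coprime_one_left _) hq (by norm_num)
  have := good_of_mem (D := chevD4) (by simp)
  have h4 : p ∣ [2, 4, 4, 6].prod := by_contra (h.false_chev (D := chevD4) (by simp)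
    (Subgroup.inclusion (gen_le_group _)) (Subgroup.inclusion_injective _) fun e => hq (hp.out.dvd_of_dvd_pow (hF ▸ e)))
  obtain rfl : p = 3 := by simpa [h2] using mem_of_dvd h4 [2, 3] (by decide +kernel)
  refine h.false_dec e (by norm_num) (M := 81) rfl fun _ => ?_
  simp only [Nat.cast_mul, Nat.cast_pow, Nat.cast_add, Nat.cast_one, cast_sub hn.ne_zero]
  exact dec3D4 _ (unit_of (k := 27) rfl (by norm_num) hq)

theorem tf4 {m : ℕ} (hF : q = 2 ^ (2 * m + 1)) (h : Hyp p (twistedF4 F (2 ^ m))) : p = 3 ∧ ¬ 3 ∣ 2 * m + 1 := by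
  have e := (one_mul _).trans (S1068.result hF)
  have := good_of_mem (D := chevF4) (by simp)
  have h4 : p ∣ [2, 6, 8, 12].prod := by_contra (h.false_chev (D := chevF4) (by simp)
    (Subgroup.inclusion (gen_le_group _)) (Subgroup.inclusion_injective _) fun e =>
      h2 ((Nat.prime_dvd_prime_iff_eq hp.out Nat.prime_two).1 (hp.out.dvd_of_dvd_pow (hF ▸ e))))
  obtain rfl : p = 3 := by simpa [h2] using mem_of_dvd h4 [2, 3] (by decide +kernel)
  refine ⟨rfl, fun ⟨k, hk⟩ => h.false_dec e (by norm_num) (M := 81) rfl fun _ => ?_⟩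
  have h5 : 9 ∣ 2 ^ (2 * m + 1) + 1 := by
    have := Odd.nat_add_dvd_pow_add_pow 8 1 (n := k) (Nat.odd_iff.2 (by omega))
    rwa [one_pow, show 8 = 2 ^ 3 from rfl, ← pow_mul, ← hk] at this
  generalize hn : 2 ^ (2 * m + 1) = n at h5
  have h0 : n ≠ 0 := hn ▸ by positivity
  rw [show n - 1 = n ^ 1 - 1 by rw [pow_one]]
  simp only [Nat.cast_mul, Nat.cast_pow, Nat.cast_add, Nat.cast_one, cast_sub h0]
  refine dec2F4 _ ?_
  exact_mod_cast (ZMod.natCast_eq_zero_iff _ 81).2 (Nat.mul_dvd_mul_left 9 h5)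

theorem tg2 {m : ℕ} (hm : 1 ≤ m) (hF : q = 3 ^ (2 * m + 1)) (h : Hyp p (twistedG2 F (3 ^ m))) : False := by
  have e := (one_mul _).trans (S1069.result hF)
  have := good_of_mem (D := chevG2) (by simp)
  have h3 : p ≠ 3 := by
    rintro rfl
    rw [← pow_mul] at e
    exact h.false_def e ((dvd_mul_right _ _).mul_right _) (Nat.coprime_one_left _) dvd_rfl (by omega)
  have h4 : p ∣ [2, 6].prod := by_contra (h.false_chev (D := chevG2) (by simp)
    (Subgroup.inclusion (gen_le_group _)) (Subgroup.inclusion_injective _) fun e =>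
      h3 ((Nat.prime_dvd_prime_iff_eq hp.out Nat.prime_three).1 (hp.out.dvd_of_dvd_pow (hF ▸ e))))
  simpa [h2, h3] using mem_of_dvd h4 [2, 3] (by decide +kernel)

theorem sz {m e : ℕ} (hF : q = 2 ^ (2 * m + 1)) (h : Hyp p (Lie.Sz F e)) : False := by
  have hq : ¬ p ∣ q := fun e =>
    h2 ((Nat.prime_dvd_prime_iff_eq hp.out Nat.prime_two).1 (hp.out.dvd_of_dvd_pow (hF ▸ e)))
  obtain ⟨S⟩ : Nonempty (Sylow p (Lie.Sz F e)) := inferInstance
  obtain ⟨x, y, z, t⟩ := exists_tri_of_surj (.id _) Function.surjective_id S (h.nc S)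
  have h3 := bound_lin ((Units.coeHom _).comp (Lie.Sz F e).subtype) (fun _ _ e => Subtype.ext (Units.ext e)) hq t
  have h4 := orderOf_ne_zero (a := (q : ℕ)) (by simpa [ZMod.natCast_eq_zero_iff] using hq)
  have h5 := hp.out.two_le
  have h6 := Nat.le_mul_of_pos_right p (Nat.pos_of_ne_zero h4)
  rw [Fintype.card_fin] at h3
  obtain rfl : p = 3 := by
    have : p ≠ 4 := by rintro rfl; exact absurd hp.out (by decide)
    omega
  have h7 := orderOf_eq_one_iff.1 (show orderOf (((q : ℕ) : ℤ) : ZMod 3) = 1 by omega)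
  rw [hF, Int.cast_natCast, Nat.cast_pow, pow_succ, pow_mul] at h7
  rw [dec2.1, one_pow] at h7
  exact dec2.2 h7

theorem alt {n : ℕ} (hn : 2 ≤ n) (h : Hyp p (alternatingGroup (Fin n))) : False := by
  have : Nontrivial (Fin n) := Fin.nontrivial_iff_two_le.2 hn
  by_cases h1 : n < p ^ 2
  · obtain ⟨S⟩ : Nonempty (Sylow p (alternatingGroup (Fin n))) := inferInstance
    obtain ⟨x, y, z, t⟩ := exists_tri S.isPGroup' (h.nc S)
    refine t.ne (Subtype.ext (Subtype.ext (Equiv.ext fun a => ?_)))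
    change z ∈ MulAction.stabilizer (S : Subgroup (alternatingGroup (Fin n))) a
    obtain ⟨k, hk⟩ := S.isPGroup'.exists_card_eq
    have h3 := (MulAction.index_stabilizer (S : Subgroup (alternatingGroup (Fin n))) a).le.trans (Set.ncard_le_card _)
    generalize MulAction.stabilizer (S : Subgroup (alternatingGroup (Fin n))) a = H at h3
    obtain ⟨j, hj, h4⟩ := (Nat.dvd_prime_pow hp.out).1 (hk ▸ H.index_dvd_card)
    rw [h4, Nat.card_fin] at h3
    have h5 := (Nat.pow_lt_pow_iff_right hp.out.one_lt).1 (h3.trans_lt h1)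
    rcases (by omega : j = 0 ∨ j = 1) with rfl | rfl
    · exact Subgroup.index_eq_one.1 h4 ▸ Subgroup.mem_top z
    have := Subgroup.normal_of_index_eq_minFac_card (H := H) (by rw [hk, h4, pow_one, hp.out.pow_minFac (by omega)])
    have := isCyclic_of_prime_card (α := _ ⧸ H) (h4.trans (pow_one p))
    rw [← QuotientGroup.eq_one_iff, ← mul_eq_right (b := QuotientGroup.mk (s := H) (y * x)), ← QuotientGroup.mk_mul,
      ← t.rel, QuotientGroup.mk_mul, QuotientGroup.mk_mul]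
    exact IsCyclic.isMulCommutative.1.1 _ _
  have e := two_mul_nat_card_alternatingGroup (α := Fin n)
  rw [Nat.card_perm, Nat.card_fin] at e
  refine h.false_nat (not_dvd_of_dvd_four h2 (show 2 ∣ 4 by norm_num)) (e ▸ ?_)
  have := hp.out.two_le
  have : p ≠ 4 := by rintro rfl; exact absurd hp.out (by decide)
  rcases (by omega : p = 3 ∨ 5 ≤ p) with rfl | h5
  · exact Dvd.dvd.trans (by decide) (Nat.factorial_dvd_factorial (not_lt.1 h1))
  have h3 := (Nat.mul_dvd_mul (Nat.dvd_factorial hp.out.pos le_rfl) (Nat.dvd_factorial hp.out.pos le_rfl)).trans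
    (Nat.factorial_mul_factorial_dvd_factorial_add p p)
  exact ((show p ^ 4 = p * p * (p * p) by ring).dvd.trans (Nat.mul_dvd_mul h3 h3)).trans
    ((Nat.factorial_mul_factorial_dvd_factorial_add _ _).trans (Nat.factorial_dvd_factorial (by nlinarith)))

end CfsgLib.XS3
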