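import Mathlib

/-!
# A lower bound for the degree of a non-abelian `p`-group of matrices in characteristic prime to `p`
-/

set_option autoImplicit false

namespace CfsgLib.XS3

open Matrix Module

/-- `x y = z y x` with `z ≠ 1` of order `p` commuting with `x` and `y` -/
structure Tri {Γ : Type*} [Group Γ] (p : ℕ) (x y z : Γ) : Prop where
  rel : x * y = z * (y * x)
  zx : z * x = x * z
  zy : z * y = y * z
  pow : z ^ p = 1
  ne : z ≠ 1

theorem Tri.map {Γ Δ : Type*} [Group Γ] [Group Δ] {p : ℕ} {x y z : Γ} (h : Tri p x y z) (f : Γ →* Δ)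
    (hf : Function.Injective f) : Tri p (f x) (f y) (f z) where
  rel := by simpa only [map_mul] using congrArg f h.rel
  zx := by simpa only [map_mul] using congrArg f h.zx
  zy := by simpa only [map_mul] using congrArg f h.zy
  pow := by rw [← map_pow, h.pow, map_one]
  ne := fun e => h.ne (hf (e.trans f.map_one.symm))

theorem exists_tri {P : Type*} [Group P] [Finite P] {p : ℕ} [hp : Fact p.Prime] (hP : IsPGroup p P)
    (h : ¬ IsMulCommutative P) : ∃ x y z : P, Tri p x y z := by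
  have h1 : Nontrivial (P ⧸ Subgroup.center P) := by
    rw [← not_subsingleton_iff_nontrivial]
    intro h2
    exact h ⟨⟨fun a b => (Subgroup.mem_center_iff.1 ((QuotientGroup.eq_one_iff b).1 (Subsingleton.elim _ _)) a)⟩⟩
  have h2 := hP.to_quotient (Subgroup.center P)
  have h3 := h2.center_nontrivial
  obtain ⟨k, hk0, hk⟩ := (h2.to_subgroup (Subgroup.center _)).nontrivial_iff_card.1 h3
  obtain ⟨⟨u, hu⟩, hu1⟩ := exists_prime_orderOf_dvd_card' (G := Subgroup.center (P ⧸ Subgroup.center P)) p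
    (hk ▸ dvd_pow_self p hk0.ne')
  obtain ⟨x, rfl⟩ := QuotientGroup.mk_surjective u
  have hx1 : x ^ p ∈ Subgroup.center P := by
    rw [← QuotientGroup.eq_one_iff, QuotientGroup.mk_pow]
    exact congrArg Subtype.val (hu1 ▸ pow_orderOf_eq_one _)
  have hx2 : x ∉ Subgroup.center P := fun e => by
    have : (⟨_, hu⟩ : Subgroup.center (P ⧸ Subgroup.center P)) = 1 := Subtype.ext ((QuotientGroup.eq_one_iff x).2 e)
    rw [this, orderOf_one] at hu1
    exact hp.out.one_lt.ne hu1
  obtain ⟨y, hy⟩ : ∃ y, y * x ≠ x * y := by simpa [Subgroup.mem_center_iff] using hx2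
  have hz : x * y * (y * x)⁻¹ ∈ Subgroup.center P := by
    rw [← QuotientGroup.eq_one_iff, QuotientGroup.mk_mul, QuotientGroup.mk_inv, QuotientGroup.mk_mul,
      QuotientGroup.mk_mul, mul_inv_eq_one]
    exact (Subgroup.mem_center_iff.1 hu _).symm
  generalize e : x * y * (y * x)⁻¹ = z at hz
  have hr : x * y = z * (y * x) := by rw [← e]; group
  have hc := Subgroup.mem_center_iff.1 hz
  refine ⟨x, y, z, hr, (hc x).symm, (hc y).symm, ?_, fun e' => hy (by rw [hr, e', one_mul])⟩
  have : ∀ n, x ^ n * y = z ^ n * (y * x ^ n) := fun n => by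
    induction n with
    | zero => simp
    | succ n ih =>
      rw [pow_succ' x, mul_assoc, ih, ← mul_assoc, ((Commute.pow_right (hc x) n).eq), mul_assoc, ← mul_assoc x, hr,
        pow_succ z]
      group
  have h4 := this p
  rw [← Subgroup.mem_center_iff.1 hx1 y] at h4
  exact (mul_eq_right.1 h4.symm)

theorem exists_tri_of_surj {Γ G : Type*} [Group Γ] [Finite Γ] [Group G] {p : ℕ} [Fact p.Prime] (π : Γ →* G)
    (hπ : Function.Surjective π) (S : Sylow p G) (h : ¬ IsMulCommutative (S : Subgroup G)) :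
    ∃ x y z : Γ, Tri p x y z := by
  have := Finite.of_surjective π hπ
  obtain ⟨P⟩ : Nonempty (Sylow p Γ) := inferInstance
  have h1 : ¬ IsMulCommutative (P : Subgroup Γ) := fun h1 => by
    have h2 : IsMulCommutative ((P.mapSurjective hπ : Sylow p G) : Subgroup G) := by
      rw [Sylow.coe_mapSurjective]; infer_instance
    have e := Sylow.equiv (P.mapSurjective hπ) S
    exact h ⟨⟨fun a b => e.symm.injective (by rw [map_mul, map_mul, h2.1.1])⟩⟩
  obtain ⟨x, y, z, h⟩ := exists_tri P.isPGroup' h1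
  exact ⟨_, _, _, h.map (P : Subgroup Γ).subtype (Subgroup.subtype_injective _)⟩

section End

variable {K V : Type*} [Field K] [AddCommGroup V] [Module K V] [FiniteDimensional K V] {p : ℕ}

theorem le_finrank_eigenspace (hp : p.Prime) {x y z : (End K V)ˣ} (h : Tri p x y z) {ζ : K} (h1 : ζ ≠ 1)
    (h2 : End.HasEigenvalue (z : End K V) ζ) : p ≤ finrank K (End.eigenspace (z : End K V) ζ) := by
  set W := End.eigenspace (z : End K V) ζ
  have k : ∀ u : (End K V)ˣ, z * u = u * z → ∀ v ∈ W, (u : End K V) v ∈ W := fun u hu v hv => by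
    rw [End.mem_eigenspace_iff] at hv ⊢
    rw [← End.mul_apply, ← Units.val_mul, hu, Units.val_mul, End.mul_apply, hv, map_smul]
  have k' : ∀ u : (End K V)ˣ, ∀ hu, LinearMap.det ((u : End K V).restrict (k u hu)) ≠ 0 := fun u hu e => by
    obtain ⟨v, hv, e⟩ := (Submodule.ne_bot_iff _).1 (LinearMap.det_eq_zero_iff_ker_ne_bot.1 e)
    have : (u : End K V) v = 0 := congrArg Subtype.val hv
    have h3 := congrArg ((u⁻¹ : (End K V)ˣ) : End K V) this
    rw [← End.mul_apply, Units.inv_mul, map_zero] at h3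
    exact e (Subtype.ext h3)
  have h3 : (x : End K V).restrict (k x h.zx) * (y : End K V).restrict (k y h.zy) =
      ζ • ((y : End K V).restrict (k y h.zy) * (x : End K V).restrict (k x h.zx)) := by
    ext v
    have := congrArg (fun u : (End K V)ˣ => (u : End K V) v) h.rel
    simp only [Units.val_mul, End.mul_apply] at this
    simpa [this] using End.mem_eigenspace_iff.1 (k y h.zy _ (k x h.zx _ v.2))
  have h4 := congrArg LinearMap.det h3
  rw [LinearMap.det_smul, map_mul, map_mul, mul_comm (LinearMap.det _), eq_comm,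
    mul_eq_right₀ (mul_ne_zero (k' _ h.zy) (k' _ h.zx))] at h4
  have h5 : ζ ^ p = 1 := by
    obtain ⟨v, hv⟩ := h2.exists_hasEigenvector
    have := hv.pow_apply p
    rw [← Units.val_pow_eq_pow_val, h.pow, Units.val_one, End.one_apply, eq_comm, ← sub_eq_zero] at this
    rw [← sub_eq_zero]
    refine (smul_eq_zero.1 ?_).resolve_right hv.2
    rwa [sub_smul, one_smul]
  have := Fact.mk hp
  refine Nat.le_of_dvd (Submodule.one_le_finrank_iff.2 h2) ?_
  rw [← orderOf_eq_prime h5 h1]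
  exact orderOf_dvd_of_pow_eq_one h4

theorem mul_card_le (hp : p.Prime) {x y z : (End K V)ˣ} (h : Tri p x y z) (E : Finset K)
    (hE : ∀ ζ ∈ E, ζ ≠ 1 ∧ End.HasEigenvalue (z : End K V) ζ) : p * E.card ≤ finrank K V := by
  classical
  have h1 := (End.eigenspaces_iSupIndep (z : End K V)).comp (f := fun ζ : E => (ζ : K)) Subtype.val_injective
  have h2 := h1.dfinsupp_lsum_injective
  have h3 := LinearMap.finrank_le_finrank_of_injective h2
  have h4 := Module.finrank_directSum K (fun ζ : E => End.eigenspace (z : End K V) (ζ : K))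
  refine le_trans ?_ (h4.symm.le.trans h3)
  rw [mul_comm, ← Fintype.card_coe, ← smul_eq_mul, ← Finset.card_univ, ← Finset.sum_const]
  exact Finset.sum_le_sum fun ζ _ => le_finrank_eigenspace hp h (hE _ ζ.2).1 (hE _ ζ.2).2

theorem exists_eigenvalue [IsAlgClosed K] (hp : (p : K) ≠ 0) {z : End K V} (h1 : z ^ p = 1) (h2 : z ≠ 1) :
    ∃ ζ, ζ ≠ 1 ∧ ζ ^ p = 1 ∧ z.HasEigenvalue ζ := by
  set W := LinearMap.range (z - 1)
  have k : ∀ v ∈ W, z v ∈ W := by
    rintro _ ⟨v, rfl⟩
    exact ⟨z v, by simp⟩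
  have : Nontrivial W := Submodule.nontrivial_iff_ne_bot.2 fun e => h2 (sub_eq_zero.1 (LinearMap.range_eq_bot.1 e))
  obtain ⟨ζ, hζ⟩ := End.exists_eigenvalue (z.restrict k : End K W)
  obtain ⟨⟨w, u, rfl⟩, hw⟩ := hζ.exists_hasEigenvector
  have h3 : z ((z - 1) u) = ζ • (z - 1) u := congrArg Subtype.val hw.apply_eq_smul
  have h4 : (z - 1) u ≠ 0 := fun e => hw.2 (Subtype.ext e)
  have h5 : z.HasEigenvector ζ ((z - 1) u) := ⟨End.mem_eigenspace_iff.2 h3, h4⟩
  refine ⟨ζ, ?_, ?_, End.hasEigenvalue_of_hasEigenvector h5⟩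
  · rintro rfl
    have : ∀ n : ℕ, (z ^ n) u = u + (n : K) • (z - 1) u := fun n => by
      induction n with
      | zero => simp
      | succ n ih =>
        rw [pow_succ', End.mul_apply, ih, map_add, map_smul, h3, Nat.cast_succ, add_smul, one_smul]
        simp only [LinearMap.sub_apply, End.one_apply]
        abel
    have h6 := this p
    rw [h1, End.one_apply, left_eq_add] at h6
    exact h4 ((smul_eq_zero.1 h6).resolve_left hp)
  · have := h5.pow_apply p
    rw [h1, End.one_apply, eq_comm, ← sub_eq_zero] at this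
    rw [← sub_eq_zero]
    refine (smul_eq_zero.1 ?_).resolve_right h4
    rwa [sub_smul, one_smul]

end End

variable {ι : Type*} [Fintype ι] [DecidableEq ι] {F K : Type*} [Field F] [Field K]

/-- `ζ` is an eigenvalue of the matrix -/
def Ev (A : Matrix ι ι K) (ζ : K) : Prop := (A - ζ • 1).det = 0

theorem Ev.iff {A : Matrix ι ι K} {ζ : K} : Ev A ζ ↔ End.HasEigenvalue (toLin' A) ζ := by
  rw [Ev, ← exists_mulVec_eq_zero_iff, End.hasEigenvalue_iff, Submodule.ne_bot_iff]
  refine exists_congr fun v => ?_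
  rw [End.mem_eigenspace_iff, toLin'_apply, sub_mulVec, smul_mulVec, one_mulVec, sub_eq_zero, and_comm]

theorem Ev.map {A : Matrix ι ι K} {ζ : K} (h : Ev A ζ) (ψ : K →+* K) : Ev (A.map ψ) (ψ ζ) := by
  have := congrArg ψ h
  rw [map_zero, RingHom.map_det] at this
  refine Eq.trans (congrArg det ?_) this
  ext i j
  by_cases e : i = j <;> simp [e, one_apply]

theorem Ev.inv {A B J : Matrix ι ι K} {ζ : K} (h : Ev A ζ) (h0 : ζ ≠ 0) (hJ : J.det ≠ 0) (e : Aᵀ * J * B = J) :
    Ev B ζ⁻¹ := by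
  have h1 : (A - ζ • 1)ᵀ * J * B = (-ζ) • (J * (B - ζ⁻¹ • 1)) := by
    rw [transpose_sub, sub_mul, sub_mul, e, mul_sub, smul_sub]
    simp [smul_smul, h0, sub_eq_add_neg, add_comm]
  have h2 := congrArg det h1
  rw [det_mul, det_mul, det_transpose, h, zero_mul, zero_mul, det_smul, det_mul, eq_comm] at h2
  exact ((mul_eq_zero.1 ((mul_eq_zero.1 h2).resolve_left (pow_ne_zero _ (neg_ne_zero.2 h0)))).resolve_left hJ)

/-- the degree bound -/
theorem degree_bound [IsAlgClosed K] {p : ℕ} [hp : Fact p.Prime] (hK : (p : K) ≠ 0) {x y z : GL ι K} (h : Tri p x y z)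
    (c : ℤ) (hc : ∀ ζ, ζ ≠ 0 → Ev (z : Matrix ι ι K) ζ → Ev (z : Matrix ι ι K) (ζ ^ c)) (hc0 : (c : ZMod p) ≠ 0) :
    p * orderOf (c : ZMod p) ≤ Fintype.card ι := by
  classical
  let θ : GL ι K →* (End K (ι → K))ˣ := Units.map (toLinAlgEquiv' : Matrix ι ι K ≃ₐ[K] _).toMonoidHom
  have hθ : Function.Injective θ := Units.map_injective (toLinAlgEquiv' : Matrix ι ι K ≃ₐ[K] _).injective
  have h' := h.map θ hθ
  obtain ⟨ζ, h1, h2, h3⟩ := exists_eigenvalue hK (z := (θ z : End K (ι → K)))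
    (by rw [← Units.val_pow_eq_pow_val, h'.pow, Units.val_one]) fun e => h'.ne (Units.ext e)
  have hζ : IsPrimitiveRoot ζ p := orderOf_eq_prime h2 h1 ▸ IsPrimitiveRoot.orderOf ζ
  have h0 : ζ ≠ 0 := hζ.ne_zero hp.out.ne_zero
  have h4 : ∀ i : ℕ, Ev (z : Matrix ι ι K) (ζ ^ (c ^ i)) := fun i => by
    induction i with
    | zero => simpa using Ev.iff.2 h3
    | succ i ih => rw [pow_succ, _root_.zpow_mul]; exact hc _ (zpow_ne_zero _ h0) ih
  have h5 := mul_card_le hp.out h' ((Finset.range (orderOf (c : ZMod p))).image fun i => ζ ^ (c ^ i)) (by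
    intro ξ hξ
    obtain ⟨i, -, rfl⟩ := Finset.mem_image.1 hξ
    refine ⟨fun e => pow_ne_zero i hc0 ?_, Ev.iff.1 (h4 i)⟩
    rw [← Int.cast_pow, ZMod.intCast_zmod_eq_zero_iff_dvd]
    exact (hζ.zpow_eq_one_iff_dvd _).1 e)
  rw [Finset.card_image_of_injOn, Finset.card_range, Module.finrank_fintype_fun_eq_card] at h5
  · exact h5
  intro i hi j hj e
  refine pow_injOn_Iio_orderOf (by simpa using hi) (by simpa using hj) ?_
  simp only at e ⊢
  rw [← Int.cast_pow, ← Int.cast_pow, ← sub_eq_zero, ← Int.cast_sub, ZMod.intCast_zmod_eq_zero_iff_dvd,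
    ← hζ.zpow_eq_one_iff_dvd, zpow_sub₀ h0, e, div_self (zpow_ne_zero _ h0)]

end CfsgLib.XS3
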